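import Cfsg.Agent.H999.IF.EngB
import Cfsg.Agent.H325.IF.Inv4
import Cfsg.Agent.H989.Fx.Cls
import Cfsg.Agent.H59.IF.Core7

/-!
# S5719, orthogonal groups, `q` odd: the number of fundamental involutions of `A` (helper900)

* `zeta_bound` : `ζ f⁵ < |z^T|`, `ζ` the number of fundamental involutions of `A`, `f` the index of `B ∩ A` in
  `B ≤ C_T(z)`;
* `seven_unique` : dimension seven, the final count.
-/

set_option autoImplicit false
set_option linter.unusedSectionVars false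

namespace Cfsg.Agent.H900.IF

open Module QuadraticMap Cfsg.Agent.LieClassical Cfsg.Agent.LieClassical.OrthCore Cfsg.Agent.LieClassical.OrthTrans
  Cfsg.Agent.LieClassical.OrthSimple
open Cfsg.Agent.H989.Gs.Gen Cfsg.Agent.H989.Fx
open Cfsg.Agent.H209.Fxy Cfsg.Agent.H999.IFB

variable {T : Type*} [Group T] [Finite T] {A : Subgroup T} {Γ : Subgroup (MulAut T)}

/-- the count of the conjugates of an involution inside `A` -/
theorem ncard_mul_pow_lt [IsSimpleGroup T] (hna : ∃ a b : T, a * b ≠ b * a) (h : IF A Γ) {z : T} (hzA : z ∈ A)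
    (hz2 : orderOf z = 2) (B : Subgroup T) (hB : B ≤ Subgroup.centralizer {z}) (P : Set T) (hP : ∀ s ∈ P, s ∈ A)
    (hPc : ∀ s ∈ P, ∃ g : T, g * z * g⁻¹ = s) :
    P.ncard * (A.relIndex B) ^ 5 < (Subgroup.centralizer ({z} : Set T)).index := by
  have hσ : MulAut.conj z ∈ Γ := (h.conj z).2 hzA
  obtain ⟨ho, hicl, -, -, -⟩ := IF.E2' h hna hzA hz2
  have hfix := IF.fix_formula' h hσ
  have hE1 := (IF.E1 h hσ ho (B := B) (fun b hb => by
    rw [MulAut.conj_apply]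
    have := Subgroup.mem_centralizer_singleton_iff.1 (hB hb)
    rw [← this, mul_inv_cancel_right])).1
  have hsm := h.small _ hσ ho
  have hinj : P.ncard ≤ (icl (MulAut.conj z) ∩ (Γ : Set (MulAut T))).ncard := by
    refine Set.ncard_le_ncard_of_injOn (fun s => MulAut.conj s) ?_ ?_ (Set.toFinite _)
    · intro s hs
      obtain ⟨g, hg⟩ := hPc s hs
      refine ⟨⟨g, ?_⟩, (h.conj s).2 (hP s hs)⟩
      rw [← hg, map_mul, map_mul, map_inv]
    · intro a _ b _ hab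
      have h1 : ∀ x, (b⁻¹ * a) * x = x * (b⁻¹ * a) := by
        intro x
        have h2 : a * x * a⁻¹ = b * x * b⁻¹ := congrArg (fun τ : MulAut T => τ x) hab
        have h3 : b⁻¹ * (a * x * a⁻¹) * a = b⁻¹ * (b * x * b⁻¹) * a := by rw [h2]
        calc b⁻¹ * a * x = b⁻¹ * (a * x * a⁻¹) * a := by group
          _ = b⁻¹ * (b * x * b⁻¹) * a := h3
          _ = x * (b⁻¹ * a) := by group
      have h4 := center_of hna h1
      exact (inv_mul_eq_one.1 h4).symm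
  rw [hicl] at hfix
  have hpos : 0 < A.index := by have := h.big; omega
  have hfpos := fx_pos A (MulAut.conj z)
  have h5 : P.ncard * A.index ≤ fx A (MulAut.conj z) * (Subgroup.centralizer ({z} : Set T)).index := by
    rw [hfix, mul_comm]
    exact Nat.mul_le_mul le_rfl hinj
  by_cases hP0 : P.ncard = 0
  · rw [hP0, zero_mul]
    exact Nat.pos_of_ne_zero Subgroup.index_ne_zero_of_finite
  have h6 : P.ncard * fx A (MulAut.conj z) ^ 5 < (Subgroup.centralizer ({z} : Set T)).index := by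
    have h7 : fx A (MulAut.conj z) * (P.ncard * fx A (MulAut.conj z) ^ 5) <
        fx A (MulAut.conj z) * (Subgroup.centralizer ({z} : Set T)).index := by
      calc fx A (MulAut.conj z) * (P.ncard * fx A (MulAut.conj z) ^ 5)
          = P.ncard * fx A (MulAut.conj z) ^ 6 := by ring
        _ < P.ncard * A.index := Nat.mul_lt_mul_of_pos_left hsm (Nat.pos_of_ne_zero hP0)
        _ ≤ _ := h5
    exact Nat.lt_of_mul_lt_mul_left h7
  refine lt_of_le_of_lt ?_ h6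
  exact Nat.mul_le_mul le_rfl (Nat.pow_le_pow_left hE1 5)

section

open Cfsg.Agent.UGT.U2.FOne.Orth (Four)
open Matrix (SpecialLinearGroup)

variable {F V : Type*} [Field F] [AddCommGroup V] [Module F V] {Q : QuadraticForm F V}

theorem noncomm_of_four {e₁ f₁ e₂ f₂ : V} (h : Four Q e₁ f₁ e₂ f₂) : ∃ a b : ↥(E Q), a * b ≠ b * a := by
  let a : SpecialLinearGroup (Fin 2) F := ⟨!![1, 1; 0, 1], by simp [Matrix.det_fin_two_of]⟩
  let b : SpecialLinearGroup (Fin 2) F := ⟨!![1, 0; 1, 1], by simp [Matrix.det_fin_two_of]⟩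
  refine ⟨h.rhoE a, h.rhoE b, fun hab => ?_⟩
  rw [← map_mul, ← map_mul] at hab
  obtain ⟨p1, p2, p3, p4, p5, p6, p7, p8, p9, p10, p11, p12, p13, p14, p15, p16⟩ := h.pols
  have key : ∀ M : SpecialLinearGroup (Fin 2) F, polar Q f₁ (ap (h.rhoE M) e₁) = M.1 0 0 := by
    intro M
    have h1 : ap (h.rhoE M) e₁ = M.1 0 0 • e₁ + M.1 1 0 • e₂ := h.rho_e1 M
    rw [h1, polar_add_right, polar_smul_right, polar_smul_right, p6, p13]
    simp
  have h1 := key (a * b)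
  have h3 := key (b * a)
  rw [hab, h3] at h1
  have e1 : (b * a).1 0 0 = 1 := by
    change (b.1 * a.1) 0 0 = 1
    rw [Matrix.mul_apply, Fin.sum_univ_two]
    simp [a, b]
  have e2 : (a * b).1 0 0 = 1 + 1 := by
    change (a.1 * b.1) 0 0 = 1 + 1
    rw [Matrix.mul_apply, Fin.sum_univ_two]
    simp [a, b]
  rw [e1, e2] at h1
  exact one_ne_zero (add_eq_left.1 h1.symm)

/-- **`ζ f⁵ < |z^T|`** -/
theorem zeta_bound [Finite F] [FiniteDimensional F V] (h2 : (2 : F) ≠ 0) (hG : Good Q) [IsSimpleGroup ↥(E Q)]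
    {A : Subgroup ↥(E Q)} {Γ : Subgroup (MulAut ↥(E Q))} (h : IF A Γ) {z : ↥(E Q)} (hz : Fund Q z) (hzA : z ∈ A)
    (B : Subgroup ↥(E Q)) (hB : B ≤ Subgroup.centralizer {z}) :
    {s : ↥(E Q) | Fund Q s ∧ s ∈ A}.ncard * (A.relIndex B) ^ 5 < (Subgroup.centralizer ({z} : Set ↥(E Q))).index := by
  have : Finite V := Module.finite_of_finite F
  have hfin : Finite ↥(E Q) := Finite.of_injective (fun (g : ↥(E Q)) (v : V) => ap g v) fun a b hab =>
    ext_ap fun v => congrFun hab v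
  have hna : ∃ a b : ↥(E Q), a * b ≠ b * a := by
    obtain ⟨e₁, f₁, e₂, f₂, h4, -⟩ := hz
    exact noncomm_of_four h4
  have hz2 : orderOf z = 2 := orderOf_eq_prime (by rw [pow_two, hz.sq]) (hz.ne_one h2)
  exact ncard_mul_pow_lt hna h hzA hz2 B hB _ (fun s hs => hs.2)
    fun s hs => Cfsg.Agent.H325.IF.exists_conj_of_fund h2 hG hz hs.1

/-- **dimension seven, the final count** -/
theorem seven_unique [Finite F] [FiniteDimensional F V] (h2 : (2 : F) ≠ 0) (hG : Good Q) [IsSimpleGroup ↥(E Q)]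
    {A : Subgroup ↥(E Q)} {Γ : Subgroup (MulAut ↥(E Q))} (h : IF A Γ) {z : ↥(E Q)} (hz : Fund Q z) (hzA : z ∈ A)
    (B : Subgroup ↥(E Q)) (hB : B ≤ Subgroup.centralizer {z}) (hN : finrank F V = 7)
    (hf : (Nat.card F = 3 ∧ 12 ≤ A.relIndex B) ∨ ((Nat.card F + 1) ^ 2 ≤ A.relIndex B ∧
      ({s : ↥(E Q) | Fund Q s ∧ s ∈ A}.ncard = 1 ∨ Nat.card F ^ 2 + 1 ≤ 2 * {s : ↥(E Q) | Fund Q s ∧ s ∈ A}.ncard))) :
    ∀ s ∈ A, Fund Q s → s = z := by
  have : Finite V := Module.finite_of_finite F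
  have hfin : Finite ↥(E Q) := Finite.of_injective (fun (g : ↥(E Q)) (v : V) => ap g v) fun a b hab =>
    ext_ap fun v => congrFun hab v
  have hb := zeta_bound h2 hG h hz hzA B hB
  obtain ⟨ε, hT⟩ := exists_ty h2 7 V Q hG.nondeg hN
  have hc := fund_seven h2 hG hT hz
  have hc' : 2 * (Subgroup.centralizer ({z} : Set ↥(E Q))).index =
      Nat.card F ^ 6 * (Nat.card F ^ 2 + 1) * (Nat.card F ^ 4 + Nat.card F ^ 2 + 1) := by exact_mod_cast hc
  have hone : {s : ↥(E Q) | Fund Q s ∧ s ∈ A}.ncard = 1 := by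
    have hpos : 0 < {s : ↥(E Q) | Fund Q s ∧ s ∈ A}.ncard := (Set.ncard_pos (Set.toFinite _)).2 ⟨z, hz, hzA⟩
    rcases hf with ⟨hq, h12⟩ | ⟨hq, h1 | h1⟩
    · rw [hq] at hc'
      have h3 : 12 ^ 5 ≤ (A.relIndex B) ^ 5 := Nat.pow_le_pow_left h12 5
      by_contra hne
      have h4 : 2 ≤ {s : ↥(E Q) | Fund Q s ∧ s ∈ A}.ncard := by omega
      have h5 : 2 * 12 ^ 5 ≤ {s : ↥(E Q) | Fund Q s ∧ s ∈ A}.ncard * (A.relIndex B) ^ 5 := Nat.mul_le_mul h4 h3
      norm_num at hc' h5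
      omega
    · exact h1
    · exfalso
      have h3 : ((Nat.card F + 1) ^ 2) ^ 5 ≤ (A.relIndex B) ^ 5 := Nat.pow_le_pow_left hq 5
      have h4 := Cfsg.Agent.H59.IF.num_d (q := Nat.card F)
      rw [← hc'] at h4
      have h5 : (Nat.card F ^ 2 + 1) * ((Nat.card F + 1) ^ 2) ^ 5 ≤
          2 * {s : ↥(E Q) | Fund Q s ∧ s ∈ A}.ncard * (A.relIndex B) ^ 5 := Nat.mul_le_mul h1 h3
      rw [mul_assoc] at h5
      omega
  intro s hsA hs
  obtain ⟨a, ha⟩ := Set.ncard_eq_one.1 hone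
  have h1 : s ∈ ({a} : Set ↥(E Q)) := ha ▸ (⟨hs, hsA⟩ : s ∈ {s : ↥(E Q) | Fund Q s ∧ s ∈ A})
  have h3 : z ∈ ({a} : Set ↥(E Q)) := ha ▸ (⟨hz, hzA⟩ : z ∈ {s : ↥(E Q) | Fund Q s ∧ s ∈ A})
  rw [Set.mem_singleton_iff] at h1 h3
  rw [h1, h3]

end

end Cfsg.Agent.H900.IF
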